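import Cfsg.Agent.H505.Cop.Par
import Cfsg.Agent.H505.Cop.E6Par
import Cfsg.Agent.H505.Cop.E7Par
import Cfsg.Agent.H437.Cases

/-!
# Two proper subgroups of coprime indices in `E₆(q)`, `E₇(q)`: one of them contains the top tori
-/

set_option autoImplicit false

namespace Cfsg.Agent.H505.Cop

universe u

open Cfsg.Lie Cfsg.Agent.Nodes.RGDChev Cfsg.Agent.H35.ExcIdx Cfsg.Agent.H35.PoinNum Cfsg.Agent.H505.Cop.E8Num
  Cfsg.Agent.ChevalleyStructure.CoxeterGeomTypes Cfsg.Agent.ChevalleyStructure Cfsg.Agent.Nodes.LeviDec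
  Cfsg.Agent.H436

variable {K : Type u} [Field K] [Fintype K]

theorem exists_char (K : Type u) [Field K] [Fintype K] :
    ∃ (p f : ℕ) (_ : CharP K p), p.Prime ∧ f ≠ 0 ∧ Fintype.card K = p ^ f := by
  obtain ⟨p, hp⟩ := CharP.exists K
  obtain ⟨n, hn, h1⟩ := FiniteField.card K p
  exact ⟨p, n, hp, hn, n.ne_zero, h1⟩

/-- the classes of primes which are off the index: `E₆` -/
def Off6 (q : ℕ) {G : Type*} [Group G] (X : Subgroup G) : Prop :=
  ∀ e r, (e = 3 ∨ e = 6 ∨ e = 9 ∨ e = 12) → Prim q e r → ¬ r ∣ X.index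

/-- the classes of primes which are off the index: `E₇` -/
def Off7 (q : ℕ) {G : Type*} [Group G] (X : Subgroup G) : Prop :=
  (∀ e r, (e = 6 ∨ e = 14 ∨ e = 18) → Prim q e r → ¬ r ∣ X.index) ∧
    ((∀ r, Prim q 7 r → ¬ r ∣ X.index) ∨ (∀ r, Prim q 9 r → ¬ r ∣ X.index))

theorem idx_dvd_e6 {r f : ℕ} (hr : r.Prime) (hf : f ≠ 0) (hK : Fintype.card K = r ^ f) [CharP K r] (i : Fin 6)
    {e s : ℕ} (he : e = 3 ∨ e = 6 ∨ e = 9 ∨ e = 12) (h : Prim (r ^ f) e s) :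
    s ∣ (PJ CoxeterMatrix.E₆.toCoxeterSystem hpE6.isCartan (TT chevE6 K) (XX chevE6 6 K) {j | j ≠ i}).index := by
  have hq := two_le hr hf
  have key : ∀ (dJ : List ℕ) (idx : ℕ), idx * pr (r ^ f) dJ = pr (r ^ f) [2, 5, 6, 8, 9, 12] →
      (∀ d ∈ dJ, 0 < d ∧ d < 31) → (∀ m < 31, cnt dJ m ≤ cnt [2, 5, 6, 8, 9, 12] m) →
      (∀ e ∈ [3, 6, 9, 12], cnt dJ e < cnt [2, 5, 6, 8, 9, 12] e) → s ∣ idx :=
    fun dJ idx h1 h2 h3 h4 => dvd_idx_of_E hq (N := 31) (by decide) h2 h1 h3 (by omega) (by omega)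
      (h4 e (by simp only [List.mem_cons, List.not_mem_nil, or_false]; exact he)) h
  fin_cases i
  · exact key _ _ (E6Num.idx_0 hr hf hK) (by decide) (by decide) (by decide)
  · exact key _ _ (E6Num.idx_1 hr hf hK) (by decide) (by decide) (by decide)
  · exact key _ _ (E6Num.idx_2 hr hf hK) (by decide) (by decide) (by decide)
  · exact key _ _ (E6Num.idx_3 hr hf hK) (by decide) (by decide) (by decide)
  · exact key _ _ (E6Num.idx_4 hr hf hK) (by decide) (by decide) (by decide)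
  · exact key _ _ (E6Num.idx_5 hr hf hK) (by decide) (by decide) (by decide)

theorem idx_dvd_e7 {r f : ℕ} (hr : r.Prime) (hf : f ≠ 0) (hK : Fintype.card K = r ^ f) [CharP K r] (i : Fin 7)
    {e s : ℕ} (he : e = 6 ∨ e = 14 ∨ e = 18 ∨ (e = 7 ∧ i ≠ 1) ∨ (e = 9 ∧ i ≠ 6)) (h : Prim (r ^ f) e s) :
    s ∣ (PJ CoxeterMatrix.E₇.toCoxeterSystem hpE7.isCartan (TT chevE7 K) (XX chevE7 7 K) {j | j ≠ i}).index := by
  have hq := two_le hr hf
  have key : ∀ (dJ : List ℕ) (idx : ℕ), idx * pr (r ^ f) dJ = pr (r ^ f) [2, 6, 8, 10, 12, 14, 18] →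
      (∀ d ∈ dJ, 0 < d ∧ d < 31) → (∀ m < 31, cnt dJ m ≤ cnt [2, 6, 8, 10, 12, 14, 18] m) →
      (cnt dJ e < cnt [2, 6, 8, 10, 12, 14, 18] e) → s ∣ idx :=
    fun dJ idx h1 h2 h3 h4 => dvd_idx_of_E hq (N := 31) (by decide) h2 h1 h3 (by omega) (by omega) h4 h
  fin_cases i
  · refine key _ _ (E7Num.idx_0 hr hf hK) (by decide) (by decide) ?_
    rcases he with rfl | rfl | rfl | ⟨rfl, -⟩ | ⟨rfl, -⟩ <;> decide
  · refine key _ _ (E7Num.idx_1 hr hf hK) (by decide) (by decide) ?_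
    rcases he with rfl | rfl | rfl | ⟨rfl, h5⟩ | ⟨rfl, -⟩
    · decide
    · decide
    · decide
    · exact absurd rfl h5
    · decide
  · refine key _ _ (E7Num.idx_2 hr hf hK) (by decide) (by decide) ?_
    rcases he with rfl | rfl | rfl | ⟨rfl, -⟩ | ⟨rfl, -⟩ <;> decide
  · refine key _ _ (E7Num.idx_3 hr hf hK) (by decide) (by decide) ?_
    rcases he with rfl | rfl | rfl | ⟨rfl, -⟩ | ⟨rfl, -⟩ <;> decide
  · refine key _ _ (E7Num.idx_4 hr hf hK) (by decide) (by decide) ?_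
    rcases he with rfl | rfl | rfl | ⟨rfl, -⟩ | ⟨rfl, -⟩ <;> decide
  · refine key _ _ (E7Num.idx_5 hr hf hK) (by decide) (by decide) ?_
    rcases he with rfl | rfl | rfl | ⟨rfl, -⟩ | ⟨rfl, -⟩ <;> decide
  · refine key _ _ (E7Num.idx_6 hr hf hK) (by decide) (by decide) ?_
    rcases he with rfl | rfl | rfl | ⟨rfl, -⟩ | ⟨rfl, h5⟩
    · decide
    · decide
    · decide
    · decide
    · exact absurd rfl h5

theorem not_dvd_of_cop {s m n : ℕ} (hs : s.Prime) (h : s ∣ m) (hc : m.Coprime n) : ¬ s ∣ n :=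
  fun h1 => hs.one_lt.ne' (Nat.eq_one_of_dvd_coprimes hc h h1)

/-- **`E₆(q)`** -/
theorem par_e6 (A B : Subgroup ↥(chevE6.group K)) (h : A.index.Coprime B.index) :
    A = ⊤ ∨ B = ⊤ ∨ Off6 (Fintype.card K) A ∨ Off6 (Fintype.card K) B := by
  obtain ⟨p, f, hchar, hp, hf, hF⟩ := exists_char K
  have hp' : Fact p.Prime := ⟨hp⟩
  have hfin : Finite ↥(chevE6.group K) := inferInstance
  have hfinW := finite_W hpE6 CoxeterMatrix.E₆.toCoxeterSystem
  by_cases hA : A = ⊤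
  · exact Or.inl hA
  by_cases hB : B = ⊤
  · exact Or.inr (Or.inl hB)
  right; right
  have key : ∀ (i : Fin 6) (X : Subgroup ↥(chevE6.group K)),
      (PJ CoxeterMatrix.E₆.toCoxeterSystem hpE6.isCartan (TT chevE6 K) (XX chevE6 6 K) {j | j ≠ i}).index.Coprime
      X.index → Off6 (Fintype.card K) X := by
    intro i X hc e r he hr
    rw [hF] at hr
    exact not_dvd_of_cop hr.prime (idx_dvd_e6 hp hf hF i he hr) hc
  obtain ⟨i, h1 | h1⟩ := coprime_par (E6Num.hR (K := K) (r := p))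
    (G1_eq_top hpE6 CoxeterMatrix.E₆.toCoxeterSystem (K := K)) h hA hB
  · exact Or.inl (key i A h1)
  · exact Or.inr (key i B h1)

/-- **`E₇(q)`** -/
theorem par_e7 (A B : Subgroup ↥(chevE7.group K)) (h : A.index.Coprime B.index) :
    A = ⊤ ∨ B = ⊤ ∨ Off7 (Fintype.card K) A ∨ Off7 (Fintype.card K) B := by
  obtain ⟨p, f, hchar, hp, hf, hF⟩ := exists_char K
  have hp' : Fact p.Prime := ⟨hp⟩
  have hfin : Finite ↥(chevE7.group K) := inferInstance
  have hfinW := finite_W hpE7 CoxeterMatrix.E₇.toCoxeterSystem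
  by_cases hA : A = ⊤
  · exact Or.inl hA
  by_cases hB : B = ⊤
  · exact Or.inr (Or.inl hB)
  right; right
  have key : ∀ (i : Fin 7) (X : Subgroup ↥(chevE7.group K)),
      (PJ CoxeterMatrix.E₇.toCoxeterSystem hpE7.isCartan (TT chevE7 K) (XX chevE7 7 K) {j | j ≠ i}).index.Coprime
      X.index → Off7 (Fintype.card K) X := by
    intro i X hc
    have h2 : ∀ e r, (e = 6 ∨ e = 14 ∨ e = 18 ∨ (e = 7 ∧ i ≠ 1) ∨ (e = 9 ∧ i ≠ 6)) → Prim (Fintype.card K) e r →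
        ¬ r ∣ X.index := by
      intro e r he hr
      rw [hF] at hr
      exact not_dvd_of_cop hr.prime (idx_dvd_e7 hp hf hF i he hr) hc
    refine ⟨fun e r he hr => h2 e r (by tauto) hr, ?_⟩
    by_cases hi : i = 1
    · right
      exact fun r hr => h2 9 r (Or.inr (Or.inr (Or.inr (Or.inr ⟨rfl, by rw [hi]; decide⟩)))) hr
    · left
      exact fun r hr => h2 7 r (Or.inr (Or.inr (Or.inr (Or.inl ⟨rfl, hi⟩)))) hr
  obtain ⟨i, h1 | h1⟩ := coprime_par (E7Num.hR (K := K) (r := p))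
    (G1_eq_top hpE7 CoxeterMatrix.E₇.toCoxeterSystem (K := K)) h hA hB
  · exact Or.inl (key i A h1)
  · exact Or.inr (key i B h1)

end Cfsg.Agent.H505.Cop
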