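import Cfsg.Agent.H437.Cases
import Cfsg.Agent.H436.Names
import Cfsg.Agent.H915.GNDefs

/-!
# From the codes of `H437` to the names of `H436`
-/

set_option autoImplicit false

namespace Cfsg.Agent.H505.Cop.LieName

open Cfsg Cfsg.Agent.OrdDiv Cfsg.Agent.H436 Cfsg.Agent.H437 Cfsg.Agent.H915.GN

universe u

/-- a group of Lie type with an order code has a name of the same characteristic -/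
theorem exists_name {T : LT} {p k : ℕ} {S : Type u} [Group S] (h : IsLie T p k S) :
    ∃ g, IsNamed g S ∧ HasChar p g := by
  have hp := h.prime
  have hk := h.f_ne
  have hv := h.valid
  have hc := h.rep.card hp hk hv
  have hpp : IsPrimePow (p ^ k) := hp.isPrimePow.pow hk
  have hr := h.rep
  cases T with
  | A n =>
    obtain ⟨F, _, _, hF, ⟨e⟩⟩ := hr
    refine ⟨.psl n (p ^ k), .mk' ⟨F, _, _, hF, ⟨e⟩⟩ ⟨hv.1, hv.2, hpp⟩ ?_, ⟨k, rfl⟩⟩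
    rw [Nat.card_congr e.toEquiv, ← hF]
    exact psl_eq hv.1
  | U n =>
    obtain ⟨F, _, _, hF, ⟨e⟩⟩ := hr
    refine ⟨.psu n (p ^ k), .mk' ⟨F, _, _, hF, ⟨e⟩⟩ ⟨hv.1, hv.2, hpp⟩ ?_, ⟨k, rfl⟩⟩
    rw [Nat.card_congr e.toEquiv]
    exact psu_eq hF hv.1
  | C m =>
    rcases hr with ⟨F, _, _, hF, ⟨e⟩⟩ | ⟨h3, ho, F, _, _, hF, ⟨e⟩⟩
    · refine ⟨.psp m (p ^ k), .mk' ⟨F, _, _, hF, ⟨e⟩⟩ ⟨hv.1, hv.2, hpp⟩ ?_, ⟨k, rfl⟩⟩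
      rw [Nat.card_congr e.toEquiv, ← hF]
      exact psp_eq hv.1
    · refine ⟨.oodd m (p ^ k), .mk' ⟨F, _, _, hF, ⟨e⟩⟩ ⟨h3, ho, hpp⟩ ?_, ⟨k, rfl⟩⟩
      rw [Nat.card_congr e.toEquiv, ← hF]
      exact oodd_eq h3 (hF ▸ ho)
  | P m =>
    obtain ⟨F, _, _, hF, ⟨e⟩⟩ := hr
    refine ⟨.oplus m (p ^ k), .mk' ⟨F, _, _, hF, ⟨e⟩⟩ ⟨hv, hpp⟩ ?_, ⟨k, rfl⟩⟩
    rw [Nat.card_congr e.toEquiv, ← hF]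
    exact oplus_eq hv
  | M m =>
    obtain ⟨F, _, _, a, b, hF, hab, ⟨e⟩⟩ := hr
    refine ⟨.ominus m (p ^ k), .mk' ⟨F, _, _, a, b, hF, hab, ⟨e⟩⟩ ⟨hv, hpp⟩ ?_, ⟨k, rfl⟩⟩
    rw [Nat.card_congr e.toEquiv, ← hF]
    exact ominus_eq hv hab
  | G2 => exact ⟨.g2 (p ^ k), .mk' hr ⟨hv, hpp⟩ hc, ⟨k, rfl⟩⟩
  | F4 => exact ⟨.f4 (p ^ k), .mk' hr hpp hc, ⟨k, rfl⟩⟩
  | E6 => exact ⟨.e6 (p ^ k), .mk' hr hpp hc, ⟨k, rfl⟩⟩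
  | E7 => exact ⟨.e7 (p ^ k), .mk' hr hpp hc, ⟨k, rfl⟩⟩
  | E8 => exact ⟨.e8 (p ^ k), .mk' hr hpp hc, ⟨k, rfl⟩⟩
  | TE6 => exact ⟨.te6 (p ^ k), .mk' hr hpp hc, ⟨k, rfl⟩⟩
  | TD4 => exact ⟨.td4 (p ^ k), .mk' hr hpp hc, ⟨k, rfl⟩⟩
  | Sz =>
    have hr2 := hr
    obtain ⟨F, _, _, m, hm, hF, hq, ⟨e⟩⟩ := hr
    exact ⟨.sz (p ^ k), .mk' hr2 ⟨m, hm, hq⟩ hc, ⟨k, rfl⟩⟩
  | Ree =>
    have hr2 := hr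
    obtain ⟨F, _, _, m, hm, hF, hq, ⟨e⟩⟩ := hr
    exact ⟨.ree (p ^ k), .mk' hr2 ⟨m, hm, hq⟩ hc, ⟨k, rfl⟩⟩
  | TF4 =>
    have hr2 := hr
    obtain ⟨F, _, _, m, hm, hF, hq, ⟨e⟩⟩ := hr
    exact ⟨.tf4 (p ^ k), .mk' hr2 ⟨m, hm, hq⟩ hc, ⟨k, rfl⟩⟩

end Cfsg.Agent.H505.Cop.LieName
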