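import Cfsg.Agent.H505.Cop.E8Num
import Cfsg.Agent.H505.Cop.LieName
import Cfsg.Agent.H416.E8Main
import Cfsg.Agent.H416.E8Iso
import Cfsg.Agent.H416.SporPrimes
import Cfsg.Agent.H388.EvenFixAll
import Cfsg.Agent.H325.Same.ExcRow
import Cfsg.Agent.S0205

/-!
# Subgroups of `E₈(q)` of index prime to `KK q`
-/

set_option autoImplicit false

namespace Cfsg.Agent.H505.Cop.E8Sub

open Cfsg Cfsg.Agent.H505.Cop.E8Num
open Cfsg.Agent.H416.Iso Cfsg.Agent.H416.Arith Cfsg.Agent.H416.LieArith Cfsg.Agent.H437 Cfsg.Agent.H363.Frat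

universe u

theorem one_le_br {d q : ℕ} (hd : 0 < d) : 1 ≤ br d q := by
  obtain ⟨k, rfl⟩ := Nat.exists_eq_add_of_le' hd
  rw [br, Finset.sum_range_succ', pow_zero]
  omega

theorem br_ge {d q : ℕ} : q ^ d ≤ br (d + 1) q := by
  rw [br, Finset.sum_range_succ]
  omega

theorem KK_eq (q : ℕ) : KK q = br 2 q * br 8 q * br 12 q * br 20 q * br 24 q * br 30 q := by
  simp only [KK, dK, List.map_cons, List.map_nil, List.prod_cons, List.prod_nil, mul_one]
  ring

theorem KK_ge (q : ℕ) : q ^ 90 ≤ KK q := by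
  rw [KK_eq, show q ^ 90 = q ^ 1 * q ^ 7 * q ^ 11 * q ^ 19 * q ^ 23 * q ^ 29 by ring]
  gcongr <;> exact br_ge

theorem br_dvd {d q : ℕ} (hq : 1 ≤ q) : br d q ∣ q ^ d - 1 := ⟨q - 1, (br_mul hq d).symm⟩

theorem KK_dvd_N' {q : ℕ} (hq : 1 ≤ q) : KK q ∣ N' q := by
  have h : N' q = (q ^ 2 - 1) * (q ^ 8 - 1) * (q ^ 12 - 1) * (q ^ 20 - 1) * (q ^ 24 - 1) * (q ^ 30 - 1) *
      ((q ^ 14 - 1) * (q ^ 18 - 1)) := by
    unfold N' dd
    repeat rw [Finset.prod_insert (by decide)]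
    rw [Finset.prod_singleton]
    ring
  rw [h, KK_eq]
  refine Dvd.dvd.mul_right ?_ _
  exact Nat.mul_dvd_mul (Nat.mul_dvd_mul (Nat.mul_dvd_mul (Nat.mul_dvd_mul (Nat.mul_dvd_mul (br_dvd hq) (br_dvd hq))
    (br_dvd hq)) (br_dvd hq)) (br_dvd hq)) (br_dvd hq)

theorem KK_dvd_N {q : ℕ} (hq : 1 ≤ q) : KK q ∣ N q := (KK_dvd_N' hq).mul_left _

theorem not_dvd_N' {p f : ℕ} (hp : p.Prime) (hf : 0 < f) : ¬ p ∣ N' (p ^ f) := by
  intro h6
  obtain ⟨d, hd, h7⟩ := (Prime.dvd_finsetProd_iff hp.prime _).1 h6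
  rw [← pow_mul] at h7
  exact not_dvd_sub hp (Nat.mul_pos hf (H416.E8Main.dd_bound d hd).1) h7

/-- primes of multiplicative order `d` divide `br d q` -/
theorem dvd_br {d q s : ℕ} (hq : 1 ≤ q) (hs : s.Prime) (h : s ∣ q ^ d - 1) (h1 : ¬ s ∣ q - 1) : s ∣ br d q := by
  rw [← br_mul hq d] at h
  exact (hs.dvd_mul.1 h).resolve_right h1

theorem br_dvd_KK {d q : ℕ} (hd : d ∈ dK) : br d q ∣ KK q :=
  List.dvd_prod (List.mem_map_of_mem (f := fun d => br d q) hd)

theorem mm_dvd_KK {q : ℕ} (hq : 2 ≤ q) (i : Fin 3) : mm q i ∣ KK q := by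
  have h1 : mm q i ∣ q ^ dx i - 1 := by
    obtain ⟨a, ha, -⟩ := split_dx hq i
    exact Dvd.intro a ha.symm
  rw [← br_mul (by omega : 1 ≤ q)] at h1
  have h2 : (mm q i).Coprime (q - 1) := by
    apply Nat.coprime_of_dvd
    intro ℓ hℓ h3 h4
    rw [← pow_one q] at h4
    have h5 := (order_mm hq hℓ h3 1).1 h4
    have h6 := Nat.le_of_dvd one_pos h5
    have h7 : 15 ≤ ix i := by fin_cases i <;> decide
    omega
  have h3 : mm q i ∣ br (dx i) q := h2.dvd_of_dvd_mul_right h1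
  exact h3.trans (br_dvd_KK (by fin_cases i <;> decide))

theorem tp_N'_le {t q : ℕ} (ht : t.Prime) (hq : 2 ≤ q) (htq : ¬ t ∣ q) : tp t (N' q) ≤ q ^ 24 := by
  by_cases h2 : t = 2
  · subst h2
    have hq3 : 3 ≤ q := by
      rcases Nat.lt_or_ge q 3 with h | h
      · exact absurd (by obtain rfl : q = 2 := by omega
                         exact dvd_refl 2) htq
      · exact h
    refine (tp_N'_two hq htq).trans ?_
    have h1 : 2 ^ 14 ≤ q ^ 9 := (by norm_num : 2 ^ 14 ≤ 3 ^ 9).trans (Nat.pow_le_pow_left hq3 9)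
    have h2 : (q + 1) ^ 2 ≤ q ^ 3 := by nlinarith [Nat.mul_le_mul hq3 hq3]
    calc 2 ^ 14 * (q + 1) ^ 8 = 2 ^ 14 * ((q + 1) ^ 2) ^ 4 := by rw [← pow_mul]
      _ ≤ q ^ 9 * (q ^ 3) ^ 4 := Nat.mul_le_mul h1 (Nat.pow_le_pow_left h2 4)
      _ = q ^ 21 := by rw [← pow_mul, ← pow_add]
      _ ≤ q ^ 24 := Nat.pow_le_pow_right (by omega) (by norm_num)
  · refine (tp_N'_odd ht h2 hq htq).trans ?_
    have h1 : 243 ≤ q ^ 8 := (by norm_num : 243 ≤ 2 ^ 8).trans (Nat.pow_le_pow_left hq 8)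
    have h3 : q + 1 ≤ q ^ 2 := by nlinarith
    calc 243 * (q + 1) ^ 8 ≤ q ^ 8 * (q ^ 2) ^ 8 := Nat.mul_le_mul h1 (Nat.pow_le_pow_left h3 8)
      _ = q ^ 24 := by rw [← pow_mul, ← pow_add]

theorem tp_N_le {t q : ℕ} (ht : t.Prime) (hq : 2 ≤ q) (htq : ¬ t ∣ q) : tp t (N q) ≤ q ^ 24 := by
  unfold N
  rw [tp_mul t (pow_ne_zero _ (by omega)) (N'_pos hq).ne', tp_eq_one (fun h => htq (ht.dvd_of_dvd_pow h)), one_mul]
  exact tp_N'_le ht hq htq

theorem even_card (Q : Type*) [Group Q] [Finite Q] (hQ : IsSimpleGroup Q) (hc : ¬ IsMulCommutative Q) :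
    2 ∣ Nat.card Q := by
  by_contra h
  have h1 : Group.IsSolvable Q := S0205.result (Nat.odd_iff.2 (by omega))
  apply hc
  rw [isMulCommutative_iff]
  exact IsSimpleGroup.comm_iff_isSolvable.2 h1

section core

variable {p f : ℕ} (hp : p.Prime) (hf : 0 < f) {G : Type u} [Group G] [Finite G]
  (hG : Nat.card G ∣ N (p ^ f)) (h : Hyp G (mm (p ^ f)))
include hp hf hG h

theorem core_prime {L : Subgroup G} [L.Normal] (hL : ∀ i, (mm (p ^ f) i).Coprime (Nat.card L)) {t : ℕ} (ht : t.Prime)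
    (htL : t ∣ Nat.card L) : t = p := by
  by_contra hne
  have hq := H416.E8Main.two_le_q hp hf
  have htq : ¬ t ∣ p ^ f := fun h => hne (H416.E8Main.dvd_q hp ht h)
  have htm : ∀ i, ¬ t ∣ mm (p ^ f) i := by
    intro i hi
    have h1 : t ∣ Nat.gcd (mm (p ^ f) i) (Nat.card L) := Nat.dvd_gcd hi htL
    rw [hL i] at h1
    exact ht.one_lt.ne' (Nat.dvd_one.1 h1)
  have h1 : ∀ i, mm (p ^ f) i ∣ tp t (Nat.card L) - 1 := fun i => h.normal_dvd L (hL i) ht (htm i)
  have h2 : PP (p ^ f) ∣ tp t (Nat.card L) - 1 := by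
    apply Nat.Coprime.mul_dvd_of_dvd_of_dvd
    · apply Nat.Coprime.mul_left
      · exact cop_mm hq (by decide)
      · exact cop_mm hq (by decide)
    · exact (cop_mm hq (by decide)).mul_dvd_of_dvd_of_dvd (h1 0) (h1 1)
    · exact h1 2
  have h3 : 1 < tp t (Nat.card L) := by
    unfold tp
    exact Nat.one_lt_pow (ht.factorization_pos_of_dvd Nat.card_pos.ne' htL).ne' ht.one_lt
  have h4 : tp t (Nat.card L) ≤ tp t (N (p ^ f)) := by
    unfold tp
    apply Nat.pow_le_pow_right ht.pos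
    exact (Nat.factorization_le_iff_dvd Nat.card_pos.ne' (N_pos hq).ne').2
      ((Subgroup.card_subgroup_dvd_card L).trans hG) t
  have h5 := tp_N_lt ht hq htq
  have h6 := Nat.le_of_dvd (by omega) h2
  omega

end core

open Cfsg.Agent.OrdDiv Cfsg.Agent.H436 Cfsg.Agent.H915.GN Cfsg.Agent.H264.GN Cfsg.Agent.H264.FKS Cfsg.Agent.H325.Same
  in
/-- **a group whose order divides `|E₈(q)|`, is divisible by `KK q` and has the three isolated tori has the order of
`E₈(q)`** -/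
theorem main {p f : ℕ} (hp : p.Prime) (hf : 0 < f) {G : Type u} [Group G] [Finite G]
    (hG : Nat.card G ∣ N (p ^ f)) (hK : KK (p ^ f) ∣ Nat.card G) (h : Hyp G (mm (p ^ f))) :
    Nat.card G = N (p ^ f) := by
  have hq : 2 ≤ p ^ f := H416.E8Main.two_le_q hp hf
  obtain ⟨L, hLn, hLc, hred⟩ := exists_core G (mm (p ^ f))
  have hQ := h.quotient L hLc
  have hcQ : Nat.card G = Nat.card (G ⧸ L) * Nat.card L := Subgroup.card_eq_card_quotient_mul_card_subgroup L
  have hKQ : KK (p ^ f) ∣ Nat.card (G ⧸ L) := by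
    have h1 : (KK (p ^ f)).Coprime (Nat.card L) := by
      apply Nat.coprime_of_dvd
      intro t ht h2 h3
      have h4 := core_prime hp hf hG h hLc ht h3
      subst h4
      exact not_dvd_N' hp hf (h2.trans (KK_dvd_N' (by omega)))
    rw [hcQ] at hK
    exact h1.dvd_of_dvd_mul_right hK
  have hQge : (p ^ f) ^ 90 ≤ Nat.card (G ⧸ L) := (KK_ge _).trans (Nat.le_of_dvd Nat.card_pos hKQ)
  have hnt : Nontrivial (G ⧸ L) := by
    rw [← Finite.one_lt_card_iff_nontrivial]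
    exact lt_of_lt_of_le (Nat.one_lt_pow (by norm_num) (by omega)) hQge
  obtain ⟨M, hMn, hM1, hmin⟩ := exists_minimal hnt
  obtain ⟨hMs, hMc, hM2⟩ := hQ.simple_of_minimal hred (fun T hT hTc => even_card T hT hTc) M hM1 hmin
  have hall : ∀ {i : Fin 3} {r : ℕ}, r.Prime → r ∣ mm (p ^ f) i → r ∣ Nat.card M := fun hr hrm =>
    hQ.dvd_card M (fun r hr hr2 hrQ x hx =>
      H388.EvenFixAll.exists_involution hMc S0000.result hr hr2 hrQ x hx) hr hrm
  have hC := hQ.centralizer_eq_bot hred M hM2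
  have hidx : M.index < (p ^ f) ^ 16 := by
    obtain ⟨r, hr, hrm⟩ := H416.E8Main.exists_prim_mm hp hf 1
    have h1 := hQ.index_lt M hr.1 hrm (hall hr.1 hrm)
    refine h1.trans_le ?_
    rw [show 16 = 8 * 2 by norm_num, pow_mul]
    exact Nat.pow_le_pow_left (mm1_lt hq).le 2
  have hcM : Nat.card M * M.index = Nat.card (G ⧸ L) := Subgroup.card_mul_index M
  have hcM0 : Nat.card M ≠ 0 := Nat.card_pos.ne'
  have hMge : (p ^ f) ^ 74 < Nat.card M := by
    have h1 : (p ^ f) ^ 74 * (p ^ f) ^ 16 < Nat.card M * (p ^ f) ^ 16 := by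
      calc (p ^ f) ^ 74 * (p ^ f) ^ 16 = (p ^ f) ^ 90 := by rw [← pow_add]
        _ ≤ Nat.card (G ⧸ L) := hQge
        _ = Nat.card M * M.index := hcM.symm
        _ < _ := Nat.mul_lt_mul_of_pos_left hidx Nat.card_pos
    exact Nat.lt_of_mul_lt_mul_right h1
  have hMQ : Nat.card M ∣ Nat.card (G ⧸ L) := Subgroup.card_subgroup_dvd_card M
  have hQG : Nat.card (G ⧸ L) ∣ Nat.card G := by rw [hcQ]; exact dvd_mul_right _ _
  have hMN : Nat.card M ∣ N (p ^ f) := hMQ.trans (hQG.trans hG)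
  have hnonadj : ∀ i r, r.Prime → r ∣ mm (p ^ f) i → NonAdj M r 2 := by
    intro i r hr hrm
    have h2 : ¬ 2 ∣ mm (p ^ f) i := fun h => prime_mm h (Or.inl rfl)
    exact (hQ.isol i r 2 hr Nat.prime_two hrm h2).subgroup M
  rcases H437.cases M with hpr | ⟨n, -, ⟨e⟩⟩ | ⟨T, t, k, hL⟩ | h71
  · exfalso
    apply hMc
    have : Fact (Nat.card M).Prime := ⟨hpr⟩
    have := isCyclic_of_prime_card (α := M) rfl
    rw [isMulCommutative_iff]
    let _ : CommGroup M := IsCyclic.commGroup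
    exact fun a b => mul_comm a b
  · exfalso
    choose r hr hrm using fun i : Fin 3 => H416.E8Main.exists_prim_mm hp hf i
    refine H416.E8Main.no_alt (n := n) (r := r) (fun i => (hr i).1) (fun i h => prime_mm (hrm i) (Or.inl h)) ?_ ?_ ?_
    · intro i
      rw [← Nat.card_congr e.toEquiv]
      exact hall (hr i).1 (hrm i)
    · intro i j hij hrr
      have h1 : r i ∣ Nat.gcd (mm (p ^ f) i) (mm (p ^ f) j) := Nat.dvd_gcd (hrm i) (hrr ▸ hrm j)
      rw [cop_mm hq hij] at h1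
      exact (hr i).1.one_lt.ne' (Nat.dvd_one.1 h1)
    · intro i
      exact (hnonadj i (r i) (hr i).1 (hrm i)).of_injective e.symm.toMonoidHom e.symm.injective
  · have hO := hL.isOrd
    have htple : tp t (Nat.card M) ≤ tp t (N (p ^ f)) := by
      unfold tp
      apply Nat.pow_le_pow_right hO.prime.pos
      exact (Nat.factorization_le_iff_dvd hcM0 (N_pos hq).ne').2 hMN t
    have hsz := ord_lt_tp hO
    by_cases htp : t = p
    · subst htp
      obtain ⟨g, hg, hch⟩ := LieName.exists_name hL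
      have hHS : ∀ e ∈ [20, 24, 30], HS t f e g (Nat.card M) := by
        intro e he
        have he3 : 3 ≤ e := by
          simp only [List.mem_cons, List.not_mem_nil, or_false] at he; omega
        refine HS.of M hMc hC hp hg hch he3 fun s hs => ?_
        have h1 : s ∣ br e (t ^ f) := by
          refine dvd_br (by omega) hs.prime (hs.dvd dvd_rfl) fun h2 => ?_
          rw [← pow_one (t ^ f), hs.dvd_iff] at h2
          have := Nat.le_of_dvd one_pos h2
          omega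
        refine h1.trans ((br_dvd_KK ?_).trans hKQ)
        simp only [List.mem_cons, List.not_mem_nil, or_false] at he
        rcases he with rfl | rfl | rfl <;> decide
      have hnum : num (.e8 (t ^ f)) = N (t ^ f) := by
        rw [N_eq]
        show (t ^ f) ^ 120 * (((t ^ f) ^ 2 - 1) * ((t ^ f) ^ 8 - 1) * ((t ^ f) ^ 12 - 1) *
          ((t ^ f) ^ 14 - 1) * ((t ^ f) ^ 18 - 1) * ((t ^ f) ^ 20 - 1) * ((t ^ f) ^ 24 - 1) *
          ((t ^ f) ^ 30 - 1)) = _
        ring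
      have h1 := charp_e8 hp hf hg.cond hch hg.eq (by rw [hnum]; exact hMN)
        (hHS 30 (by decide)) (hHS 24 (by decide)) (hHS 20 (by decide))
      subst h1
      have h2 : Nat.card M = N (t ^ f) := by
        have h3 : 1 * Nat.card M = num (.e8 (t ^ f)) := hg.eq
        rw [← hnum, ← h3, one_mul]
      exact Nat.dvd_antisymm hG (h2 ▸ hMQ.trans hQG)
    · exfalso
      have h1 := tp_N_le hO.prime hq (fun h => htp (H416.E8Main.dvd_q hp hO.prime h))
      have h3 : tp t (Nat.card M) ^ 3 ≤ ((p ^ f) ^ 24) ^ 3 := Nat.pow_le_pow_left (htple.trans h1) 3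
      rw [← pow_mul] at h3
      have h4 : (p ^ f) ^ (24 * 3) ≤ (p ^ f) ^ 74 := Nat.pow_le_pow_right (by omega) (by norm_num)
      omega
  · exfalso
    obtain ⟨r, hr, hrm⟩ := H416.E8Main.exists_prim_mm hp hf 1
    have h1 := H416.SporPrimes.prime_le h71 hr.1 (hall hr.1 hrm)
    have h2 : 24 ∣ r - 1 := (Nat.dvd_mul_right 24 f).trans (hr.mod hp.one_le (Nat.mul_pos (ix_pos 1) hf))
    obtain ⟨c, hc⟩ := h2
    have hr2 := hr.1.two_le
    have h3 : c = 1 ∨ c = 2 := by omega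
    rcases h3 with rfl | rfl
    · have : r = 25 := by omega
      rw [this] at hr
      exact absurd hr.1 (by norm_num)
    · have : r = 49 := by omega
      rw [this] at hr
      exact absurd hr.1 (by norm_num)

/-- **No proper subgroup of `E₈(q)` has index prime to `KK q`.** -/
theorem eq_top {p f : ℕ} (hp : p.Prime) (hf : 0 < f) {F : Type u} [Field F] [Fintype F]
    (hF : Fintype.card F = p ^ f) (B : Subgroup (Lie.chevE8.group F)) (hB : (KK (p ^ f)).Coprime B.index) :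
    B = ⊤ := by
  have hq : 2 ≤ p ^ f := H416.E8Main.two_le_q hp hf
  have hc := H416.E8Iso.card_E8 (F := F) hF
  have : Finite (Lie.chevE8.group F) := Nat.finite_of_card_ne_zero (by rw [hc]; exact (N_pos hq).ne')
  have hG : Nat.card B ∣ N (p ^ f) := by rw [← hc]; exact Subgroup.card_subgroup_dvd_card B
  have hK : KK (p ^ f) ∣ Nat.card B := by
    have h1 := KK_dvd_N (q := p ^ f) (by omega)
    rw [← hc, ← B.card_mul_index] at h1
    exact hB.dvd_of_dvd_mul_right h1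
  have hyp : Hyp B (mm (p ^ f)) := by
    refine ⟨one_lt_mm hq, fun i => odd_mm i, fun i => (mm_dvd_KK hq i).trans hK, fun i => ?_,
      fun i j hij => cop_mm hq hij, fun i => ?_, le_mm hq⟩
    · refine (hall_mm hq i).coprime_dvd_right ?_
      obtain ⟨c, hc⟩ := (mm_dvd_KK hq i).trans hK
      obtain ⟨d, hd⟩ := hG
      rw [hd, hc, Nat.mul_div_cancel_left _ (mm_pos hq i), mul_assoc, Nat.mul_div_cancel_left _ (mm_pos hq i)]
      exact dvd_mul_right _ _
    · intro r s hr hs hrm hsm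
      exact (H416.E8Iso.isol_E8 hF i r s hr hs hrm hsm).subgroup B
  have h1 := main hp hf hG hK hyp
  exact Subgroup.eq_top_of_card_eq B (h1.trans hc.symm)

end Cfsg.Agent.H505.Cop.E8Sub
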