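import Cfsg.Agent.H505.Cop.Par
import Cfsg.Agent.H505.Cop.E8Par
import Cfsg.Agent.H505.Cop.E8Sub
import Cfsg.Agent.ChevStructure.FieldMap

/-!
# Coprime orbits: the row `E₈(q)`

`E₈(q)` has no two proper subgroups of coprime indices.
-/

set_option autoImplicit false
set_option linter.unusedSectionVars false

namespace Cfsg.Agent.H505.Cop

open CoxeterSystem Cfsg.Agent.ChevalleyStructure.CoxeterGeom Cfsg.Agent.Tits.Roots Cfsg.Agent.Tits.Core
  Cfsg.Agent.Tits.Exchange Cfsg.Agent.Nodes.Reps Cfsg.Agent.Nodes.BNOf Cfsg.Agent.Nodes.StabComb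
  Cfsg.Agent.Nodes.Bruhat Cfsg.Agent.Nodes.OppDec Cfsg.Agent.Nodes.LeviDec


universe u

open Cfsg.Lie Cfsg.Agent.Nodes.RGDChev Cfsg.Agent.H505.Cop.E8Num Cfsg.Agent.H35.ExcIdx
  Cfsg.Agent.ChevalleyStructure.CoxeterGeomTypes Cfsg.Agent.ChevalleyStructure

theorem finite_E8 (K : Type u) [Field K] [Fintype K] : Finite ↥(chevE8.group K) := by
  obtain ⟨p, f, hp, hf, hF⟩ := Cfsg.Agent.H437.exists_pow K
  have hc := Cfsg.Agent.H416.E8Iso.card_E8 (F := K) hF
  exact Nat.finite_of_card_ne_zero (by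
    rw [hc]; exact (Cfsg.Agent.H416.Arith.N_pos (Cfsg.Agent.H416.E8Main.two_le_q hp (Nat.pos_of_ne_zero hf))).ne')

theorem index_E8 {K : Type u} [Field K] [Fintype K] (A B : Subgroup ↥(chevE8.group K))
    (hcop : A.index.Coprime B.index) : A = ⊤ ∨ B = ⊤ := by
  obtain ⟨p, f, hp, hf, hF⟩ := Cfsg.Agent.H437.exists_pow K
  have hp' : Fact p.Prime := ⟨hp⟩
  have hchar : CharP K p := by
    obtain ⟨r, hr⟩ := CharP.exists K
    have hr' : r.Prime := CharP.char_is_prime K r
    obtain ⟨n, hn, h1⟩ := FiniteField.card K r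
    rw [hF] at h1
    have h2 : r = p := by
      have h3 : r ∣ p ^ f := by rw [h1]; exact dvd_pow_self r n.ne_zero
      exact (Nat.prime_dvd_prime_iff_eq hr' hp).1 (hr'.dvd_of_dvd_pow h3)
    rwa [h2] at hr
  have hfin := finite_E8 K
  have hfinW := finite_W hpE8 CoxeterMatrix.E₈.toCoxeterSystem
  have key : ∀ A B : Subgroup ↥(chevE8.group K), A.index.Coprime B.index → ¬ p ∣ A.index → A = ⊤ ∨ B = ⊤ := by
    intro A B hcop hA
    by_cases hA1 : A = ⊤
    · exact Or.inl hA1
    right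
    obtain ⟨i, g, hg⟩ := exists_par (hR (K := K) (r := p))
      (G1_eq_top hpE8 CoxeterMatrix.E₈.toCoxeterSystem (K := K)) hA hA1
    refine E8Sub.eq_top hp (Nat.pos_of_ne_zero hf) hF B ?_
    apply Nat.coprime_of_dvd
    intro s hs h1 h2
    have h3 := dvd_par hp hf hF i hs h1
    have h4 := h3.trans (Subgroup.index_dvd_of_le hg)
    have hidx : (A.map (MulAut.conj g).toMonoidHom).index = A.index := Subgroup.index_map_equiv A (MulAut.conj g)
    rw [hidx] at h4
    exact hs.one_lt.ne' (Nat.eq_one_of_dvd_coprimes hcop h4 h2)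
  by_cases hA : p ∣ A.index
  · have hB : ¬ p ∣ B.index := fun hB => hp.one_lt.ne' (Nat.eq_one_of_dvd_coprimes hcop hA hB)
    exact (key B A hcop.symm hB).symm
  · exact key A B hcop hA

/-- transport of the index condition -/
theorem copRow_of_index_equiv {S : Type*} [Group S] {G : Type*} [Group G] (e : S ≃* G)
    (h : ∀ A B : Subgroup G, A.index.Coprime B.index → A = ⊤ ∨ B = ⊤) : CopRow S := by
  apply copRow_of_index
  intro A B hcop
  have key : ∀ X : Subgroup S, (X.map e.toMonoidHom).index = X.index := fun X => Subgroup.index_map_equiv X e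
  rcases h (A.map e.toMonoidHom) (B.map e.toMonoidHom) (by rw [key, key]; exact hcop) with h1 | h1
  · left
    rw [← Subgroup.index_eq_one] at h1 ⊢
    rwa [key] at h1
  · right
    rw [← Subgroup.index_eq_one] at h1 ⊢
    rwa [key] at h1

/-- **the row `E₈(q)`** -/
theorem row_E8 {S : Type*} [Group S] [Finite S] (h : Cfsg.Lie.IsoE8 S) : CopRow S := by
  obtain ⟨F, _, _, ⟨e⟩⟩ := h
  exact copRow_of_index_equiv e index_E8

end Cfsg.Agent.H505.Cop
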