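import Cfsg.Agent.S0000
import Cfsg.Agent.H505.Cop.E8Row
import Cfsg.Agent.H976.Cop.RowLin
import Cfsg.Agent.H976.Cop.RowIso
import Cfsg.Agent.H976.Cop.RowRank1
import Cfsg.Agent.H976.Cop.RowTwF4
import Cfsg.Agent.H976.Cop.RowFG
import Cfsg.Agent.H976.Cop.RowTwD4

/-!
# S4175 / S4174: assembly over the classification (helper505)
-/

set_option autoImplicit false

namespace Cfsg.Agent.H505.Cop

open Cfsg

universe u

/-- all finite groups satisfy the coprime row, from the rows of `E6`, `E7`, `2E6`, the Tits group and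
the sporadic groups -/
theorem copRow_all
    (h6 : ∀ (S : Type u) [Group S] [Finite S] [IsSimpleGroup S], Lie.IsoChevE6 S → CopRow S)
    (h7 : ∀ (S : Type u) [Group S] [Finite S] [IsSimpleGroup S], Lie.IsoE7 S → CopRow S)
    (h6t : ∀ (S : Type u) [Group S] [Finite S] [IsSimpleGroup S], Lie.Iso2E6 S → CopRow S)
    (hT : ∀ (S : Type u) [Group S] [Finite S] [IsSimpleGroup S], Lie.IsoTits S → CopRow S)
    (hS : ∀ (S : Type u) [Group S] [Finite S] [IsSimpleGroup S], IsSporadicGroup S → CopRow S)
    (H : Type u) [Group H] [Finite H] : CopRow H := by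
  refine copRow_of_simple (fun S _ _ _ hnc => ?_) H
  rcases (S0000.result : IsKnownSimple' S) with h | h | h | h | h | h | h | h | h | h
  · exfalso
    obtain ⟨x, y, hxy⟩ := hnc
    have : Fact (Nat.card S).Prime := ⟨h⟩
    have : IsCyclic S := isCyclic_of_prime_card rfl
    have hcm : IsMulCommutative S := IsCyclic.isMulCommutative
    exact hxy (hcm.is_comm.comm x y)
  · exact H976.Cop.row_alternating h
  · exact H976.Cop.row_psl h
  · exact H976.Cop.row_psp h
  · exact H976.Cop.row_psu h
  · exact H976.Cop.row_omegaOdd h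
  · exact H976.Cop.row_omegaPlus h
  · exact H976.Cop.row_omegaMinus h
  · rcases h with h | h | h | h | h | h | h | h | h | h | h
    · exact H976.Cop.row_G2 h
    · exact H976.Cop.row_F4 h
    · exact h6 S h
    · exact h7 S h
    · exact row_E8 h
    · exact h6t S h
    · exact H976.Cop.row_3D4 h
    · exact H976.Cop.row_sz h
    · exact H976.Cop.row_ree h
    · exact H976.Cop.row_twF4 h
    · exact hT S h
  · exact hS S h

end Cfsg.Agent.H505.Cop
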