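import Cfsg.Agent.H505.Cop.Rgd
import Cfsg.Agent.H248.TitsRGD

/-!
# Subgroups of index prime to the characteristic lie in maximal parabolic subgroups
-/

set_option autoImplicit false
set_option linter.unusedSectionVars false

namespace Cfsg.Agent.H505.Cop

open CoxeterSystem Cfsg.Agent.ChevalleyStructure.CoxeterGeom Cfsg.Agent.Tits.Roots Cfsg.Agent.Tits.Core
  Cfsg.Agent.Tits.Exchange Cfsg.Agent.Nodes.Reps Cfsg.Agent.Nodes.BNOf Cfsg.Agent.Nodes.StabComb
  Cfsg.Agent.Nodes.Bruhat Cfsg.Agent.Nodes.OppDec Cfsg.Agent.Nodes.LeviDec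

variable {I W Y : Type*} [Fintype I] [DecidableEq I] [Group W] [Group Y] {M : CoxeterMatrix I}
  {cs : CoxeterSystem M W} {A : I → I → ℤ} {h : IsCartan M A} {p : ℕ} {T : Subgroup Y} {n : I → Y}
  {X : (I → ℤ) → Subgroup Y}

/-- a proper subgroup of index prime to `p` lies in a conjugate of a maximal parabolic subgroup -/
theorem exists_par [Finite W] [Finite Y] [hp : Fact p.Prime]
    (R : RGD cs h p T n X) (hG1 : RGD.Sup X {x | IsRoot cs h x} = ⊤) {H : Subgroup Y} (hH : ¬ p ∣ H.index)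
    (hH1 : H ≠ ⊤) : ∃ (i : I) (g : Y), H.map (MulAut.conj g).toMonoidHom ≤ PJ cs h T X {j | j ≠ i} := by
  have hGG : GG cs h T X = ⊤ := by
    rw [eq_top_iff, ← hG1]
    exact le_sup_right
  have hU : IsPGroup p (RGD.Sup X (RGD.Pos cs h)) :=
    R.isPGroup_of_pos (S := RGD.Pos cs h) fun _ hx => hx
  obtain ⟨g, hg⟩ := exists_conj_le_of_index hU hH
  set P := H.map (MulAut.conj g).toMonoidHom with hP
  have h1 := Cfsg.Agent.H248.TitsRGD.le_PJ R hg (by rw [hGG]; exact le_top)
  have h2 : Cfsg.Agent.H248.TitsRGD.JU T n P ≠ Set.univ := by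
    intro h3
    have h4 := Cfsg.Agent.H248.TitsRGD.Sup_le_of_univ R hg h3
    rw [hG1, top_le_iff] at h4
    apply hH1
    rw [← Subgroup.index_eq_one] at h4 ⊢
    have hidx : (H.map (MulAut.conj g).toMonoidHom).index = H.index := Subgroup.index_map_equiv H (MulAut.conj g)
    rwa [hP, hidx] at h4
  obtain ⟨i, hi⟩ := (Set.ne_univ_iff_exists_notMem _).1 h2
  refine ⟨i, g, h1.trans (PJ_mono fun j hj => ?_)⟩
  rintro rfl
  exact hi hj

/-- **two proper subgroups of coprime indices**: the index of one of them is prime to the index of some maximal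
parabolic subgroup -/
theorem coprime_par [Finite W] [Finite Y] [hp : Fact p.Prime]
    (R : RGD cs h p T n X) (hG1 : RGD.Sup X {x | IsRoot cs h x} = ⊤) {H H' : Subgroup Y}
    (hcop : H.index.Coprime H'.index) (h1 : H ≠ ⊤) (h2 : H' ≠ ⊤) :
    ∃ i : I, (PJ cs h T X {j | j ≠ i}).index.Coprime H.index ∨ (PJ cs h T X {j | j ≠ i}).index.Coprime H'.index := by
  have key : ∀ H H' : Subgroup Y, H.index.Coprime H'.index → H ≠ ⊤ → ¬ p ∣ H.index →
      ∃ i : I, (PJ cs h T X {j | j ≠ i}).index.Coprime H'.index := by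
    intro H H' hcop h1 hpH
    obtain ⟨i, g, hg⟩ := exists_par R hG1 hpH h1
    have h4 := Subgroup.index_dvd_of_le hg
    have hidx : (H.map (MulAut.conj g).toMonoidHom).index = H.index := Subgroup.index_map_equiv H (MulAut.conj g)
    rw [hidx] at h4
    exact ⟨i, hcop.coprime_dvd_left h4⟩
  by_cases hA : p ∣ H.index
  · have hB : ¬ p ∣ H'.index := fun hB => hp.out.one_lt.ne' (Nat.eq_one_of_dvd_coprimes hcop hA hB)
    obtain ⟨i, hi⟩ := key H' H hcop.symm h2 hB
    exact ⟨i, Or.inl hi⟩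
  · obtain ⟨i, hi⟩ := key H H' hcop h1 hA
    exact ⟨i, Or.inr hi⟩

end Cfsg.Agent.H505.Cop
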